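import Cfsg.Agent.Subnormal.Zipper
import Mathlib

/-!
A zipper lemma without subnormality: a proper subgroup `A` with normal closure `G` is either such
that the proper subgroups in which its normal closure is everything generate `G`, or it lies in a
unique maximal subgroup.
-/

set_option autoImplicit false

open scoped Pointwise
open Subgroup

namespace CfsgLib.Subnormal

variable {G : Type*} [Group G] [Finite G]

/-- The normal closure of `A` in `H` is all of `H`. -/
def FullIn (A H : Subgroup G) : Prop :=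
  normalClosure ((A.subgroupOf H : Subgroup H) : Set H) = ⊤

/-- The proper overgroups of `A` in which its normal closure is everything. -/
def fullFamily (A : Subgroup G) : Set (Subgroup G) :=
  {H | A ≤ H ∧ H ≠ ⊤ ∧ FullIn A H}

/-- `V` is a maximal overgroup of `C` in which `C` is not subnormal. -/
def IsSpecialFor (C V : Subgroup G) : Prop :=
  IsCoatom V ∧ C ≤ V ∧ ¬ (C.subgroupOf V).IsSubnormal

omit [Finite G] in
theorem eq_of_isSubnormal_of_fullIn {A H : Subgroup G} (hAH : A ≤ H) (hF : FullIn A H)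
    (hsn : (A.subgroupOf H).IsSubnormal) : A = H := by
  rcases hsn.lt_normal with h | ⟨K, hK, hle, hlt⟩
  · exact le_antisymm hAH (subgroupOf_eq_top.mp h)
  · exact absurd (top_le_iff.mp (hF ▸ normalClosure_le_normal hle)) hlt.ne

theorem exists_fullIn_aux (n : ℕ) : ∀ (A L : Subgroup G), Nat.card L ≤ n → A ≤ L →
    ¬ (A.subgroupOf L).IsSubnormal → ∃ X, A < X ∧ X ≤ L ∧ FullIn A X := by
  induction n with
  | zero =>
    intro A L hL
    have : 0 < Nat.card L := Nat.card_pos
    omega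
  | succ n ih =>
    intro A L hL hAL hns
    set K' := normalClosure ((A.subgroupOf L : Subgroup L) : Set L) with hK'
    by_cases htop : K' = ⊤
    · refine ⟨L, lt_of_le_of_ne hAL ?_, le_rfl, htop⟩
      intro e
      apply hns
      rw [e, subgroupOf_self]
      exact Subgroup.IsSubnormal.top
    · have hAK : A ≤ K'.map L.subtype := fun a ha =>
        ⟨⟨a, hAL ha⟩, subset_normalClosure ha, rfl⟩
      have hlt : Nat.card (K'.map L.subtype : Subgroup G) ≤ n := by
        rw [Subgroup.card_subtype]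
        have : Nat.card K' < Nat.card L := by
          rcases (Nat.le_of_dvd Nat.card_pos K'.card_subgroup_dvd_card).lt_or_eq with hl | he
          · exact hl
          · exact absurd (K'.eq_top_of_card_eq he) htop
        omega
      obtain ⟨X, hAX, hXK, hX⟩ := ih A (K'.map L.subtype) hlt hAK (fun hsn => hns (by
        refine Subgroup.IsSubnormal.trans (K := K') (fun a ha => subset_normalClosure ha) ?_
          (Subgroup.Normal.isSubnormal inferInstance)
        have h2 := hsn.comap ((L.subtype.domRestrict K').codRestrict (K'.map L.subtype)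
          fun a => mem_map_of_mem _ a.2)
        exact h2))
      exact ⟨X, hAX, hXK.trans (map_subtype_le _), hX⟩

theorem exists_fullIn {A L : Subgroup G} (hAL : A ≤ L) (hns : ¬ (A.subgroupOf L).IsSubnormal) :
    ∃ X, A < X ∧ X ≤ L ∧ FullIn A X :=
  exists_fullIn_aux (Nat.card L) A L le_rfl hAL hns

omit [Finite G] in
theorem fullIn_trans {A X H : Subgroup G} (_hAX : A ≤ X) (hXH : X ≤ H) (hX : FullIn A X)
    (hH : FullIn X H) : FullIn A H := by
  rw [FullIn, ← top_le_iff, ← hH]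
  refine normalClosure_le_normal ?_
  intro x hx
  have h2 : X.subgroupOf X ≤ (normalClosure ((A.subgroupOf H : Subgroup H) : Set H)).comap
      (inclusion hXH) := by
    rw [subgroupOf_self, ← hX]
    refine normalClosure_le_normal ?_
    intro a ha
    exact subset_normalClosure (show inclusion hXH a ∈ A.subgroupOf H from ha)
  exact h2 (show (⟨(x : G), hx⟩ : X) ∈ X.subgroupOf X from hx)

omit [Finite G] in
theorem normalClosure_top_of_le {A X : Subgroup G} (h : normalClosure (A : Set G) = ⊤) (hAX : A ≤ X) :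
    normalClosure (X : Set G) = ⊤ :=
  top_le_iff.mp (h ▸ normalClosure_mono hAX)

omit [Finite G] in
theorem smul_coatom {V : Subgroup G} (hV : IsCoatom V) (g : G) : IsCoatom (MulAut.conj g • V) := by
  constructor
  · intro e
    refine hV.1 (top_le_iff.mp ?_)
    have : (⊤ : Subgroup G) ≤ MulAut.conj g • V := e.ge
    intro x _
    have h1 := this (mem_top (MulAut.conj g • x))
    rwa [smul_mem_pointwise_smul_iff] at h1
  · intro W hW
    have h1 : V < (MulAut.conj g)⁻¹ • W := by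
      refine lt_of_le_of_ne ?_ fun e => hW.ne (by rw [e, smul_inv_smul])
      rw [← pointwise_smul_le_pointwise_smul_iff (a := MulAut.conj g), smul_inv_smul]
      exact hW.le
    have h2 := hV.2 _ h1
    rw [eq_top_iff] at h2 ⊢
    intro x _
    have := h2 (mem_top ((MulAut.conj g)⁻¹ • x))
    rwa [smul_mem_pointwise_smul_iff] at this

omit [Finite G] in
theorem IsSpecialFor.smul {C V : Subgroup G} (h : IsSpecialFor C V) (g : G) :
    IsSpecialFor (MulAut.conj g • C) (MulAut.conj g • V) := by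
  refine ⟨smul_coatom h.1 g, pointwise_smul_le_pointwise_smul_iff.mpr h.2.1, fun hs => h.2.2 ?_⟩
  have h2 := subgroupOf_conj hs g⁻¹
  rwa [map_inv, inv_smul_smul, inv_smul_smul] at h2

theorem coatom_self_normalizing {A V : Subgroup G} (hncl : normalClosure (A : Set G) = ⊤)
    (hV : IsCoatom V) (hAV : A ≤ V) {g : G} (hg : MulAut.conj g • V = V) : g ∈ V := by
  have hgN : g ∈ normalizer (V : Set G) := mem_normalizer_of_conj_le hg.le
  have hN : normalizer (V : Set G) = V := by
    rcases eq_or_ne (normalizer (V : Set G)) ⊤ with e | e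
    · have : V.Normal := normalizer_eq_top_iff.mp e
      exact absurd (top_le_iff.mp (hncl ▸ normalClosure_le_normal hAV)) hV.1
    · by_contra hne
      exact e (hV.2 _ (lt_of_le_of_ne le_normalizer (Ne.symm hne)))
  exact hN ▸ hgN

theorem existsUnique_coatom_aux (n : ℕ) : ∀ (A : Subgroup G), Nat.card G - Nat.card A ≤ n →
    normalClosure (A : Set G) = ⊤ → A ≠ ⊤ → sSup (fullFamily A) ≠ ⊤ →
    ∀ M M' : Subgroup G, IsCoatom M → IsCoatom M' → A ≤ M → A ≤ M' → M = M' := by
  classical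
  induction n with
  | zero =>
    intro A hA _ hAt
    have : Nat.card A ≠ Nat.card G := fun e => hAt (A.eq_top_of_card_eq e)
    have := Nat.le_of_dvd Nat.card_pos A.card_subgroup_dvd_card
    omega
  | succ n ih =>
  intro A hA hncl hAt hsup
  set R := sSup (fullFamily A) with hR
  have hcardlt : ∀ X : Subgroup G, Nat.card A < Nat.card X → Nat.card G - Nat.card X ≤ n := by
    intro X hX
    have := Nat.le_of_dvd Nat.card_pos X.card_subgroup_dvd_card
    omega
  -- at most one special subgroup for `A`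
  have huA : ∀ V V' : Subgroup G, IsSpecialFor A V → IsSpecialFor A V' → V = V' := by
    have key : ∀ V : Subgroup G, IsSpecialFor A V → ∀ U : Subgroup G, IsCoatom U → R ≤ U → U = V := by
      intro V hV U hU hRU
      obtain ⟨X, hAX, hXV, hX⟩ := exists_fullIn hV.2.1 hV.2.2
      have hXt : X ≠ ⊤ := fun e => hV.1.1 (top_le_iff.mp (e ▸ hXV))
      have hXF : X ∈ fullFamily A := ⟨hAX.le, hXt, hX⟩
      have hcard : Nat.card A < Nat.card X := by
        rcases (Nat.le_of_dvd Nat.card_pos (card_dvd_of_le hAX.le)).lt_or_eq with hl | he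
        · exact hl
        · exact absurd (Subgroup.eq_of_le_of_card_ge hAX.le he.ge) hAX.ne
      refine ih X (hcardlt X hcard) (normalClosure_top_of_le hncl hAX.le) hXt ?_ U V hU hV.1
        ((le_sSup hXF).trans hRU) hXV
      refine fun e => hsup (top_le_iff.mp (e ▸ sSup_le fun H hH => le_sSup ?_))
      exact ⟨hAX.le.trans hH.1, hH.2.1, fullIn_trans hAX.le hH.1 hX hH.2.2⟩
    intro V V' hV hV'
    obtain ⟨U, hU, hRU⟩ := (eq_top_or_exists_le_coatom R).resolve_left hsup
    rw [← key V hV U hU hRU, key V' hV' U hU hRU]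
  have hu : ∀ (g : G) (V V' : Subgroup G), IsSpecialFor (MulAut.conj g • A) V →
      IsSpecialFor (MulAut.conj g • A) V' → V = V' := by
    intro g V V' hV hV'
    have h1 := hV.smul g⁻¹
    have h2 := hV'.smul g⁻¹
    rw [map_inv, inv_smul_smul] at h1 h2
    exact smul_left_cancel _ (huA _ _ h1 h2)
  -- two conjugates in two maximal subgroups
  have hpair : ∀ (g g' : G) (M M' : Subgroup G), MulAut.conj g • A ≠ MulAut.conj g' • A →
      IsCoatom M → IsCoatom M' → M ≠ M' → MulAut.conj g • A ≤ M → MulAut.conj g • A ≤ M' →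
      MulAut.conj g' • A ≤ M → MulAut.conj g' • A ≤ M' →
      ∃ V V', IsSpecialFor (MulAut.conj g • A) V ∧ IsSpecialFor (MulAut.conj g' • A) V' ∧
        V ≠ V' ∧ MulAut.conj g' • A ≤ V ∧ MulAut.conj g • A ≤ V' := by
    intro g g' M M' hne hM hM' hMM hgM hgM' hg'M hg'M'
    set C := MulAut.conj g • A with hC
    set C' := MulAut.conj g' • A with hC'
    set T := C ⊔ C' with hT
    have hcC : Nat.card C = Nat.card A := (Nat.card_congr (equivSMul (MulAut.conj g) A).toEquiv).symm
    have hcC' : Nat.card C' = Nat.card A :=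
      (Nat.card_congr (equivSMul (MulAut.conj g') A).toEquiv).symm
    have hcard : Nat.card A < Nat.card T := by
      rcases (Nat.le_of_dvd Nat.card_pos (card_dvd_of_le (show C ≤ T from le_sup_left))).lt_or_eq with hl | he
      · omega
      · have e1 : C = T := Subgroup.eq_of_le_of_card_ge (show C ≤ T from le_sup_left) he.ge
        have e2 : C' = T := Subgroup.eq_of_le_of_card_ge (show C' ≤ T from le_sup_right) (by omega)
        exact absurd (e1.trans e2.symm) hne
    have hTt : T ≠ ⊤ := fun e => hM.1 (top_le_iff.mp (e ▸ sup_le hgM hg'M))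
    have hTncl : normalClosure (T : Set G) = ⊤ := by
      rw [← top_le_iff, ← hncl]
      refine normalClosure_le_normal fun a ha => ?_
      have h1 : MulAut.conj g • a ∈ normalClosure (T : Set G) :=
        subset_normalClosure ((le_sup_left : C ≤ T) (smul_mem_pointwise_smul _ _ _ ha))
      have h2 := (normalClosure_normal (s := (T : Set G))).conj_mem _ h1 g⁻¹
      simpa [MulAut.smul_def, mul_assoc] using h2
    have hfull : sSup (fullFamily T) = ⊤ := by
      by_contra hc
      exact hMM (ih T (hcardlt T hcard) hTncl hTt hc M M' hM hM' (sup_le hgM hg'M) (sup_le hgM' hg'M'))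
    have hcases : ∀ H ∈ fullFamily T, H = T ∨
        (∃ V, IsSpecialFor C V ∧ H ≤ V) ∨ ∃ V, IsSpecialFor C' V ∧ H ≤ V := by
      intro H hH
      obtain ⟨V, hV, hHV⟩ := (eq_top_or_exists_le_coatom H).resolve_left hH.2.1
      by_cases h1 : (C.subgroupOf H).IsSubnormal
      swap
      · exact Or.inr (Or.inl ⟨V, ⟨hV, le_sup_left.trans (hH.1.trans hHV),
          fun h => h1 (subgroupOf_of_le hHV h)⟩, hHV⟩)
      by_cases h2 : (C'.subgroupOf H).IsSubnormal
      swap
      · exact Or.inr (Or.inr ⟨V, ⟨hV, le_sup_right.trans (hH.1.trans hHV),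
          fun h => h2 (subgroupOf_of_le hHV h)⟩, hHV⟩)
      exact Or.inl (eq_of_isSubnormal_of_fullIn hH.1 hH.2.2 (subgroupOf_sup_isSubnormal
        (le_sup_left.trans hH.1) (le_sup_right.trans hH.1) h1 h2)).symm
    by_contra hcon
    push Not at hcon
    -- all members lie in one proper subgroup
    obtain ⟨B, hB, hTB, hall⟩ : ∃ B : Subgroup G, B ≠ ⊤ ∧ T ≤ B ∧
        ∀ H ∈ fullFamily T, H ≤ B := by
      by_cases h1 : ∃ V, IsSpecialFor C V ∧ T ≤ V
      · obtain ⟨V, hV, hTV⟩ := h1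
        refine ⟨V, hV.1.1, hTV, fun H hH => ?_⟩
        rcases hcases H hH with rfl | ⟨V₁, hV₁, hle⟩ | ⟨V₁, hV₁, hle⟩
        · exact hTV
        · exact hu g V₁ V hV₁ hV ▸ hle
        · by_contra hnle
          exact hcon V V₁ hV hV₁ (fun e => hnle (e ▸ hle)) (le_sup_right.trans hTV)
            (le_sup_left.trans (hH.1.trans hle))
      by_cases h2 : ∃ V, IsSpecialFor C' V ∧ T ≤ V
      · obtain ⟨V, hV, hTV⟩ := h2
        refine ⟨V, hV.1.1, hTV, fun H hH => ?_⟩
        rcases hcases H hH with rfl | ⟨V₁, hV₁, hle⟩ | ⟨V₁, hV₁, hle⟩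
        · exact hTV
        · exact absurd ⟨V₁, hV₁, hH.1.trans hle⟩ h1
        · exact hu g' V₁ V hV₁ hV ▸ hle
      refine ⟨T, hTt, le_rfl, fun H hH => ?_⟩
      rcases hcases H hH with rfl | ⟨V₁, hV₁, hle⟩ | ⟨V₁, hV₁, hle⟩
      · exact le_rfl
      · exact absurd ⟨V₁, hV₁, hH.1.trans hle⟩ h1
      · exact absurd ⟨V₁, hV₁, hH.1.trans hle⟩ h2
    exact hB (top_le_iff.mp (hfull ▸ sSup_le hall))
  -- maximal intersection
  by_contra hcon
  push Not at hcon
  obtain ⟨M₀, M₀', h0, h0', hA0, hA0', hne0⟩ := hcon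
  let Pairs : Set (Subgroup G × Subgroup G) :=
    {q | IsCoatom q.1 ∧ IsCoatom q.2 ∧ A ≤ q.1 ∧ A ≤ q.2 ∧ q.1 ≠ q.2}
  obtain ⟨q, hq, hmax⟩ := Set.exists_max_image Pairs (fun q => Nat.card (q.1 ⊓ q.2 : Subgroup G))
    (Set.toFinite _) ⟨(M₀, M₀'), h0, h0', hA0, hA0', hne0⟩
  obtain ⟨M, M'⟩ := q
  obtain ⟨hM, hM', hAM, hAM', hMM⟩ := hq
  set D := M ⊓ M' with hD
  have hAD : A ≤ D := le_inf hAM hAM'
  let Λ : Set (Subgroup G) := {C | (∃ g : G, C = MulAut.conj g • A) ∧ C ≤ D}
  set J := sSup Λ with hJ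
  have hAJ : A ≤ J := le_sSup (show A ∈ Λ from ⟨⟨1, by rw [map_one, one_smul]⟩, hAD⟩)
  have hJD : J ≤ D := sSup_le fun C hC => hC.2
  -- the main step
  have hstep : ∀ N N' : Subgroup G, IsCoatom N → IsCoatom N' → N ≠ N' → N ⊓ N' = D →
      (∃ B ∈ Λ, (B.subgroupOf N).IsSubnormal) →
      ∃ x ∈ N, x ∉ D ∧ x ∈ normalizer (J : Set G) ∧
        ∀ C ∈ Λ, (C.subgroupOf N).IsSubnormal → MulAut.conj x • C ∈ Λ := by
    intro N N' hN hN' hNN hND hB
    have hDN : D ≤ N := hND ▸ inf_le_left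
    have hDN' : D ≤ N' := hND ▸ inf_le_right
    let S : Set (Subgroup G) :=
      {C | (∃ g : G, C = MulAut.conj g • A) ∧ C ≤ N ∧ (C.subgroupOf N).IsSubnormal}
    let S₀ : Set (Subgroup G) := {C ∈ S | C ≤ D}
    have hconj : ∀ U ∈ S, ∀ g ∈ N, MulAut.conj g • U ∈ S := by
      rintro U ⟨⟨a, rfl⟩, hle, hsn⟩ g hg
      have hgN : MulAut.conj g • N = N := Subgroup.conj_smul_eq_self_of_mem hg
      exact ⟨⟨g * a, by rw [map_mul, mul_smul]⟩, hgN ▸ pointwise_smul_le_pointwise_smul_iff.mpr hle,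
        hgN ▸ subgroupOf_conj hsn g⟩
    obtain ⟨x, hxN, hxD, hx⟩ : ∃ x ∈ N, x ∉ D ∧ ∀ C ∈ S₀, MulAut.conj x • C ≤ D := by
      by_cases hall : S₀ = S
      · obtain ⟨x, hxN, hxD⟩ : ∃ x ∈ N, x ∉ D := by
          refine SetLike.not_le_iff_exists.mp fun h => hNN ?_
          rcases hN.le_iff.mp (h.trans hDN') with e | e
          · exact absurd e hN'.1
          · exact e.symm
        refine ⟨x, hxN, hxD, fun C hC => ?_⟩
        have : MulAut.conj x • C ∈ S₀ := hall ▸ hconj C hC.1 x hxN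
        exact this.2
      · obtain ⟨X, hX, hX0, hXn⟩ := exists_not_mem_le_normalizer_sSup_of_le (H := N) (S := S)
          (S₀ := S₀) (fun U hU => hU.2.1) (fun U hU => hU.2.2) hconj
          ((show S₀ ≤ S from fun C hC => hC.1).ssubset_of_ne hall)
        obtain ⟨x, hxX, hxD⟩ := SetLike.not_le_iff_exists.mp fun h => hX0 ⟨hX, h⟩
        refine ⟨x, hX.2.1 hxX, hxD, fun C hC => ?_⟩
        have e := Subgroup.mem_normalizer_iff_map_conj_eq.mp (hXn hxX)
        exact (pointwise_smul_le_pointwise_smul_iff.mpr (le_sSup hC)).trans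
          (e.le.trans (sSup_le fun U hU => hU.2))
    have hΛ0 : ∀ C ∈ Λ, (C.subgroupOf N).IsSubnormal → MulAut.conj x • C ∈ Λ := by
      intro C hC hsn
      have h1 := hx C ⟨⟨hC.1, hC.2.trans hDN, hsn⟩, hC.2⟩
      obtain ⟨g, rfl⟩ := hC.1
      exact ⟨⟨x * g, by rw [map_mul, mul_smul]⟩, h1⟩
    refine ⟨x, hxN, hxD, ?_, hΛ0⟩
    refine mem_normalizer_of_conj_le (pointwise_smul_subset_iff.mpr (sSup_le fun C hC => ?_))
    rw [← pointwise_smul_subset_iff]
    by_cases hsn : (C.subgroupOf N).IsSubnormal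
    · exact le_sSup (hΛ0 C hC hsn)
    -- a member in which `N` is special is fixed by `x`
    suffices heq : MulAut.conj x • C = C by rw [heq]; exact le_sSup hC
    obtain ⟨⟨g, rfl⟩, hCD⟩ := hC
    have hC0 : IsSpecialFor (MulAut.conj g • A) N := ⟨hN, hCD.trans hDN, hsn⟩
    obtain ⟨B, hBΛ, hBsn⟩ := hB
    -- a member mapped by `x` into `D`
    set B₁ := MulAut.conj x • B with hB₁
    have hB₁Λ : B₁ ∈ Λ := hΛ0 B hBΛ hBsn
    obtain ⟨b, rfl⟩ := hBΛ.1
    have hxN' : MulAut.conj x • N = N := Subgroup.conj_smul_eq_self_of_mem hxN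
    have hne : MulAut.conj g • A ≠ MulAut.conj b • A := fun e => hsn (e ▸ hBsn)
    obtain ⟨-, V', -, hV', -, -, hCV'⟩ := hpair g b N N' hne hN hN' hNN (hCD.trans hDN)
      (hCD.trans hDN') (hBΛ.2.trans hDN) (hBΛ.2.trans hDN')
    set V₁ := MulAut.conj x • V' with hV₁
    have hB₁eq : B₁ = MulAut.conj (x * b) • A := by rw [hB₁, map_mul, mul_smul]
    have hV₁s : IsSpecialFor (MulAut.conj (x * b) • A) V₁ := hB₁eq ▸ hV'.smul x
    have hxC : MulAut.conj x • (MulAut.conj g • A) ≤ V₁ := pointwise_smul_le_pointwise_smul_iff.mpr hCV'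
    have hxCN : MulAut.conj x • (MulAut.conj g • A) ≤ N :=
      hxN' ▸ pointwise_smul_le_pointwise_smul_iff.mpr (hCD.trans hDN)
    have hB₁sn : ((MulAut.conj (x * b) • A).subgroupOf N).IsSubnormal := by
      rw [map_mul, mul_smul]
      exact hxN' ▸ subgroupOf_conj hBsn x
    have hV₁N : V₁ ≠ N := fun e => hV₁s.2.2 (e ▸ hB₁sn)
    have hne' : MulAut.conj g • A ≠ MulAut.conj (x * b) • A := fun e => hsn (e ▸ hB₁sn)
    obtain ⟨-, V₂, -, hV₂, -, -, hCV₂⟩ := hpair g (x * b) N N' hne' hN hN' hNN (hCD.trans hDN)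
      (hCD.trans hDN') (hB₁eq ▸ hB₁Λ.2.trans hDN) (hB₁eq ▸ hB₁Λ.2.trans hDN')
    rw [hu _ V₂ V₁ hV₂ hV₁s] at hCV₂
    by_contra hxne
    have hxne' : MulAut.conj g • A ≠ MulAut.conj (x * g) • A := fun e => hxne (by
      rw [map_mul, mul_smul] at e
      exact e.symm)
    have e2 : MulAut.conj (x * g) • A = MulAut.conj x • (MulAut.conj g • A) := by
      rw [map_mul, mul_smul]
    obtain ⟨W, W', hW, hW', hWW, -, -⟩ := hpair g (x * g) N V₁ hxne' hN hV₁s.1 (Ne.symm hV₁N)
      (hCD.trans hDN) hCV₂ (e2 ▸ hxCN) (e2 ▸ hxC)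
    refine hWW ((hu g W N hW hC0).trans (hu (x * g) W' N hW' ?_).symm)
    rw [e2]
    exact hxN' ▸ hC0.smul x
  -- `A` is subnormal in one of the two
  have h1A : MulAut.conj (1 : G) • A = A := by rw [map_one, one_smul]
  have hAΛ : A ∈ Λ := ⟨⟨1, h1A.symm⟩, hAD⟩
  have main : ∀ N N' : Subgroup G, IsCoatom N → IsCoatom N' → N ≠ N' → N ⊓ N' = D →
      (A.subgroupOf N).IsSubnormal → False := by
    intro N N' hN hN' hNN hND hsn
    have hDN : D ≤ N := hND ▸ inf_le_left
    have hDN' : D ≤ N' := hND ▸ inf_le_right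
    obtain ⟨x, hxN, hxD, hxJ, hxΛ⟩ := hstep N N' hN hN' hNN hND ⟨A, hAΛ, hsn⟩
    have hB : ∃ B ∈ Λ, (B.subgroupOf N').IsSubnormal := by
      by_cases hsn' : (A.subgroupOf N').IsSubnormal
      · exact ⟨A, hAΛ, hsn'⟩
      have hA' : IsSpecialFor A N' := ⟨hN', hAD.trans hDN', hsn'⟩
      have hBΛ := hxΛ A hAΛ hsn
      refine ⟨_, hBΛ, ?_⟩
      by_contra hBs
      have hxne : MulAut.conj x • A ≠ A := fun e => by
        have h2 := hA'.smul x
        rw [e] at h2
        exact hxD (hND ▸ mem_inf.mpr ⟨hxN,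
          coatom_self_normalizing hncl hN' (hAD.trans hDN') (huA _ _ h2 hA')⟩)
      obtain ⟨W, W', hW, hW', hWW, -, -⟩ := hpair 1 x N N' (by rw [h1A]; exact hxne.symm) hN hN'
        hNN (by rw [h1A]; exact hAD.trans hDN) (by rw [h1A]; exact hAD.trans hDN')
        (hBΛ.2.trans hDN) (hBΛ.2.trans hDN')
      rw [h1A] at hW
      exact hWW ((huA W N' hW hA').trans (hu x W' N' hW' ⟨hN', hBΛ.2.trans hDN', hBs⟩).symm)
    obtain ⟨z, hzN', hzD, hzJ, -⟩ := hstep N' N hN' hN hNN.symm (inf_comm N N' ▸ hND) hB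
    -- the normalizer of `J`
    have hDJ : D ≤ normalizer (J : Set G) := by
      intro d hd
      refine mem_normalizer_of_conj_le (pointwise_smul_subset_iff.mpr (sSup_le fun C hC => ?_))
      rw [← pointwise_smul_subset_iff]
      obtain ⟨⟨g, rfl⟩, hCD⟩ := hC
      refine le_sSup ⟨⟨d * g, by rw [map_mul, mul_smul]⟩, ?_⟩
      rw [← Subgroup.conj_smul_eq_self_of_mem (H := D) hd]
      exact pointwise_smul_le_pointwise_smul_iff.mpr hCD
    have hNJ : normalizer (J : Set G) ≠ ⊤ := by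
      intro e
      have : J.Normal := normalizer_eq_top_iff.mp e
      exact hN.1 (top_le_iff.mp ((hncl ▸ normalClosure_le_normal hAJ : ⊤ ≤ J).trans
        (hJD.trans hDN)))
    obtain ⟨M₃, hM₃, hle⟩ := (eq_top_or_exists_le_coatom _).resolve_left hNJ
    have hAM₃ : A ≤ M₃ := hAD.trans (hDJ.trans hle)
    have hsame : ∀ P : Subgroup G, IsCoatom P → A ≤ P → (∃ y ∈ P, y ∉ D ∧ y ∈ normalizer (J : Set G)) →
        D ≤ P → M₃ = P := by
      intro P hP hAP ⟨y, hyP, hyD, hyJ⟩ hDP
      by_contra hne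
      have h2 : Nat.card (M₃ ⊓ P : Subgroup G) ≤ Nat.card D :=
        hmax (M₃, P) ⟨hM₃, hP, hAM₃, hAP, hne⟩
      have h3 : D ≤ M₃ ⊓ P := le_inf (hDJ.trans hle) hDP
      exact hyD ((Subgroup.eq_of_le_of_card_ge h3 h2).symm ▸ mem_inf.mpr ⟨hle hyJ, hyP⟩)
    exact hNN ((hsame N hN (hAD.trans hDN) ⟨x, hxN, hxD, hxJ⟩ hDN).symm.trans
      (hsame N' hN' (hAD.trans hDN') ⟨z, hzN', hzD, hzJ⟩ hDN'))
  by_cases hsn : (A.subgroupOf M).IsSubnormal
  · exact main M M' hM hM' hMM rfl hsn
  · refine main M' M hM' hM hMM.symm (inf_comm M' M) ?_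
    by_contra hsn'
    exact hMM (huA M M' ⟨hM, hAM, hsn⟩ ⟨hM', hAM', hsn'⟩)

/-- A proper subgroup with normal closure `G` either has full closure in proper subgroups generating
`G`, or lies in a unique maximal subgroup. -/
theorem sSup_fullFamily_or_existsUnique {A : Subgroup G} (hA : normalClosure (A : Set G) = ⊤)
    (hAG : A ≠ ⊤) : sSup (fullFamily A) = ⊤ ∨ ∃! M : Subgroup G, IsCoatom M ∧ A ≤ M := by
  by_cases h : sSup (fullFamily A) = ⊤
  · exact Or.inl h
  obtain ⟨M, hM, hAM⟩ := (eq_top_or_exists_le_coatom A).resolve_left hAG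
  exact Or.inr ⟨M, ⟨hM, hAM⟩, fun M' hM' =>
    existsUnique_coatom_aux (Nat.card G) A (Nat.sub_le _ _) hA hAG h M' M hM'.1 hM hM'.2 hAM⟩

end CfsgLib.Subnormal
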